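import Cfsg.Agent.H926.MinusB
import Cfsg.Agent.H926.OverTwo
import Cfsg.Agent.H926.Sub1
import Cfsg.Agent.H926.Sub2
import Cfsg.Agent.H925.OrthNot
import Cfsg.Agent.H925.OrthPlane2
import Cfsg.Agent.H924.TensorTwo
import Cfsg.Agent.H924.Reduc
import Cfsg.Agent.H912.TensForm3
import Cfsg.Agent.H912.TensForm4

/-!
# Maximal subgroups of the ten-dimensional orthogonal groups of minus type
-/

set_option autoImplicit false
set_option linter.unusedSectionVars false

namespace Cfsg.Agent.H926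

open QuadraticMap Matrix Cfsg.Geo
open Cfsg.Agent.H919 (HermForm)

variable {F : Type*} [Field F] [Fintype F]

/-- The list of the maximal subgroups of `Ω_10^-(q)`. -/
def Target (Q : (Fin 10 → F) → F) (H : Subgroup (Matrix.GeneralLinearGroup (Fin 10) F)) : Prop :=
    (∃ W : Submodule F (Fin 10 → F), W ≠ ⊥ ∧ Cfsg.Geo.IsTotallySingularQuad Q W ∧ H = Cfsg.Geo.subspaceStabilizer W ⊓ Cfsg.Geo.omegaGL Q) ∨
    (Odd (Fintype.card F) ∧ ∃ W : Submodule F (Fin 10 → F), W ≠ ⊥ ∧ W ≠ ⊤ ∧ Odd (Module.finrank F W) ∧ 2 * Module.finrank F W ≠ 10 ∧ Cfsg.Geo.IsNondegenerateOn (QuadraticMap.polar Q) W ∧ H = Cfsg.Geo.subspaceStabilizer W ⊓ Cfsg.Geo.omegaGL Q) ∨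
    (∃ W : Submodule F (Fin 10 → F), Module.finrank F W = 2 ∧ Cfsg.Geo.IsNondegenerateOn (QuadraticMap.polar Q) W ∧ ¬ Cfsg.Geo.IsPlusTypeOn Q W ∧ H = Cfsg.Geo.subspaceStabilizer W ⊓ Cfsg.Geo.omegaGL Q) ∨
    (4 ≤ Fintype.card F ∧ ∃ W : Submodule F (Fin 10 → F), Module.finrank F W = 2 ∧ Cfsg.Geo.IsNondegenerateOn (QuadraticMap.polar Q) W ∧ Cfsg.Geo.IsPlusTypeOn Q W ∧ H = Cfsg.Geo.subspaceStabilizer W ⊓ Cfsg.Geo.omegaGL Q) ∨
    (∃ W : Submodule F (Fin 10 → F), Module.finrank F W = 4 ∧ Cfsg.Geo.IsNondegenerateOn (QuadraticMap.polar Q) W ∧ H = Cfsg.Geo.subspaceStabilizer W ⊓ Cfsg.Geo.omegaGL Q) ∨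
    (¬ Odd (Fintype.card F) ∧ ∃ v : (Fin 10 → F), Q v ≠ 0 ∧ H = Cfsg.Geo.subspaceStabilizer (Submodule.span F {v}) ⊓ Cfsg.Geo.omegaGL Q) ∨
    ((∃ p : ℕ, p.Prime ∧ Fintype.card F = p ∧ (p % 4 = 3)) ∧ ∃ D : Fin 10 → Submodule F (Fin 10 → F), Cfsg.Geo.IsOrthogonalMDecomposition Q 1 D ∧ H = Cfsg.Geo.decompositionStabilizer D ⊓ Cfsg.Geo.omegaGL Q) ∨
    (Fintype.card F ≠ 3 ∧ ∃ D : Fin 5 → Submodule F (Fin 10 → F), Cfsg.Geo.IsOrthogonalMDecomposition Q 2 D ∧ H = Cfsg.Geo.decompositionStabilizer D ⊓ Cfsg.Geo.omegaGL Q) ∨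
    (Fintype.card F % 4 = 3 ∧ ∃ D : Fin 2 → Submodule F (Fin 10 → F), Cfsg.Geo.IsOrthogonalMDecomposition Q 5 D ∧ H = Cfsg.Geo.decompositionStabilizer D ⊓ Cfsg.Geo.omegaGL Q) ∨
    (Fintype.card F % 4 = 1 ∧ ∃ D : Fin 2 → Submodule F (Fin 10 → F), Cfsg.Geo.IsNondegenerateMDecomposition (QuadraticMap.polar Q) 5 D ∧ ¬ Cfsg.Geo.AreIsometricFor Q (D 0) (D 1) ∧ H = Cfsg.Geo.decompositionStabilizer D ⊓ Cfsg.Geo.omegaGL Q) ∨
    (Odd (Fintype.card F) ∧ ∃ K : Subalgebra F (Matrix (Fin 10) (Fin 10) F), Cfsg.Geo.IsFieldSubalgebra 2 K ∧ Cfsg.Geo.IsSelfAdjointFor (QuadraticMap.polar Q) K ∧ H = Cfsg.Geo.subalgebraNormalizer K ⊓ Cfsg.Geo.omegaGL Q) ∨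
    (∃ K : Subalgebra F (Matrix (Fin 10) (Fin 10) F), Cfsg.Geo.IsFieldSubalgebra 2 K ∧ Cfsg.Geo.IsAdjointClosedFor (QuadraticMap.polar Q) K ∧ ¬ Cfsg.Geo.IsSelfAdjointFor (QuadraticMap.polar Q) K ∧ (∀ k ∈ K, ∃ c : F, ∀ v : (Fin 10 → F), Q (Matrix.mulVec k v) = c * Q v) ∧ H = Cfsg.Geo.subalgebraNormalizer K ⊓ Cfsg.Geo.omegaGL Q) ∨
    (∃ (F₀ : Subfield F) (r : ℕ) (P : Matrix.GeneralLinearGroup (Fin 10) F) (ζ : F), r.Prime ∧ Odd r ∧ Fintype.card F = Nat.card F₀ ^ r ∧ ζ ≠ 0 ∧ Cfsg.Geo.IsQuadFormRationalStructure (fun v : Fin 10 → F => ζ * Q v) F₀ P ∧ H = Cfsg.Geo.subfieldSubgroup F₀ P ⊓ Cfsg.Geo.omegaGL Q) ∨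
    Cfsg.Geo.InOrthogonalResidualClass H

section

variable {Q : (Fin 10 → F) → F} {H : Subgroup (Matrix.GeneralLinearGroup (Fin 10) F)}

theorem iso_of_max (hH : IsMaximalIn (omegaGL Q) H) : H ≤ Cfsg.isometryGroup F Q :=
  hH.1.le.trans (H925.omegaGL_le_iso Q)

theorem t_c2b (hminus : ¬ IsPlusTypeOn Q ⊤) {m : ℕ} {D : Fin 2 → Submodule F (Fin 10 → F)}
    (hD : IsMDecomposition m D) (hs : ∀ i, IsTotallySingularQuad Q (D i)) : False := by
  have h1 := Cfsg.Agent.H922.mul_eq_card hD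
  rw [Fintype.card_fin] at h1
  apply hminus
  refine ⟨D 0, le_top, hs 0, ?_⟩
  rw [hD.finrank_eq, finrank_top, Module.finrank_fintype_fun_eq_card, Fintype.card_fin, h1]

theorem two_ne_of_odd_dim (hQ : IsNondegenerateQuadraticForm Q) {W : Submodule F (Fin 10 → F)}
    (hW : IsNondegenerateOn (polar Q) W) (hodd : Odd (Module.finrank F W)) : (2 : F) ≠ 0 := by
  intro h2
  have h1 := even_on hQ.polar_bilinear W (fun v _ => by rw [polar_self_two hQ, h2, zero_mul]) hW
  exact (Nat.not_even_iff_odd.2 hodd) h1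

theorem odd_card_iff : Odd (Fintype.card F) ↔ (2 : F) ≠ 0 := by
  rw [← not_iff_not, card_even_iff_two_eq_zero, not_not]

theorem card_mod_four (h2 : (2 : F) ≠ 0) : Fintype.card F % 4 = 1 ∨ Fintype.card F % 4 = 3 := by
  have := odd_card_iff.2 h2
  rw [Nat.odd_iff] at this
  omega

theorem t_c2a (hQ : IsNondegenerateQuadraticForm Q) (hminus : ¬ IsPlusTypeOn Q ⊤)
    (hH : IsMaximalIn (omegaGL Q) H) {t m : ℕ}
    {D : Fin t → Submodule F (Fin 10 → F)} (hD : IsOrthogonalMDecomposition Q m D)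
    (hHD : H ≤ decompositionStabilizer D) : Target Q H := by
  have htm := Cfsg.Agent.H922.mul_eq_card hD.decomp.decomp
  have ht2 := hD.decomp.decomp.two_le
  have hm0 := hD.decomp.decomp.pos
  rw [Fintype.card_fin] at htm
  have hne : ∀ i, D i ≠ ⊥ := by
    intro i h
    have := hD.decomp.decomp.finrank_eq i
    rw [h, finrank_bot] at this
    omega
  have heq : H = decompositionStabilizer D ⊓ omegaGL Q :=
    H925.eq_inf_of_isMaximalIn hH hHD
      (H925.omegaGL_not_le_decompositionStabilizer hQ (by rw [Fintype.card_fin]; norm_num) ht2 hne hD.decomp.decomp.indep)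
  have hi0 : 0 < t := by omega
  have hsq : Even t → (2 : F) ≠ 0 → Fintype.card F % 4 = 3 := by
    intro hev h2
    rcases card_mod_four h2 with h | h
    · exfalso
      exact hminus (plus_of_isometric_square hQ h2 hev hD (FiniteField.isSquare_neg_one_iff.2 (by omega)))
    · exact h
  have hodd : Odd m → (2 : F) ≠ 0 := by
    intro hm
    exact two_ne_of_odd_dim hQ (hD.decomp.nondegenerate ⟨0, hi0⟩) (by rw [hD.decomp.decomp.finrank_eq]; exact hm)
  obtain ⟨rfl, rfl⟩ | ⟨rfl, rfl⟩ | ⟨rfl, rfl⟩ : (t = 2 ∧ m = 5) ∨ (t = 5 ∧ m = 2) ∨ (t = 10 ∧ m = 1) := by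
    have ht10 : t ≤ 10 := by nlinarith
    interval_cases t <;> omega
  · have h2 := hodd (by decide)
    have h3 := hsq (by decide) h2
    unfold Target
    iterate 8 right
    left
    exact ⟨h3, D, hD, heq⟩
  · by_cases h3 : Fintype.card F = 3
    · obtain ⟨D', hD', hle⟩ := minus_planes_three h3 hQ hD (fun i hp => hminus (plus_of_member_plus hQ hD i hp))
      have hne' : ∀ i, D' i ≠ ⊥ := by
        intro i h
        have := hD'.decomp.decomp.finrank_eq i
        rw [h, finrank_bot] at this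
        omega
      have heq' : H = decompositionStabilizer D' ⊓ omegaGL Q :=
        H925.eq_inf_of_isMaximalIn hH ((le_inf hHD (iso_of_max hH)).trans hle)
          (H925.omegaGL_not_le_decompositionStabilizer hQ (by rw [Fintype.card_fin]; norm_num) (by norm_num) hne'
            hD'.decomp.decomp.indep)
      unfold Target
      iterate 6 right
      left
      exact ⟨⟨3, by norm_num, h3, by norm_num⟩, D', hD', heq'⟩
    · unfold Target
      iterate 7 right
      left
      exact ⟨h3, D, hD, heq⟩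
  · have h2 := hodd (by decide)
    have h3 := hsq (by decide) h2
    by_cases hp : (Fintype.card F).Prime
    · unfold Target
      iterate 6 right
      left
      exact ⟨⟨_, hp, rfl, h3⟩, D, hD, heq⟩
    · obtain ⟨F₀, r, hr, hcard⟩ := Cfsg.Agent.H922.exists_subfield_prime_index hp
      obtain ⟨P, ζ, hζ, hrat, hle⟩ := H925.frame_le_subfield hQ hD F₀
      have hrodd : Odd r := by
        rcases hr.eq_two_or_odd' with rfl | h
        · exfalso
          rw [hcard] at h3
          have h4 : Nat.card F₀ % 4 < 4 := Nat.mod_lt _ (by norm_num)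
          have h5 : Nat.card F₀ ^ 2 % 4 = (Nat.card F₀ % 4) ^ 2 % 4 := Nat.pow_mod _ _ _
          rw [h5] at h3
          interval_cases (Nat.card F₀ % 4) <;> omega
        · exact h
      unfold Target
      iterate 12 right
      left
      refine ⟨F₀, r, P, ζ, hr, hrodd, hcard, hζ, hrat, ?_⟩
      refine H925.eq_inf_of_isMaximalIn hH ((le_inf hHD (iso_of_max hH)).trans hle)
        (H925.omegaGL_not_le_subfieldSubgroup hQ (by rw [Fintype.card_fin]; norm_num) ?_ P)
      rintro rfl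
      have h6 : Nat.card (⊤ : Subfield F) = Fintype.card F := by
        rw [← Nat.card_eq_fintype_card]
        exact Nat.card_congr Subfield.topEquiv.toEquiv
      rw [h6] at hcard
      have h7 : 1 < Fintype.card F := Fintype.one_lt_card
      have h8 : Fintype.card F ^ 1 < Fintype.card F ^ r := Nat.pow_lt_pow_right h7 hr.one_lt
      rw [pow_one, ← hcard] at h8
      exact lt_irrefl _ h8

theorem t_c3_two (hQ : IsNondegenerateQuadraticForm Q)
    (hH : IsMaximalIn (omegaGL Q) H) (hirr : ActsIrreducibly (matrixSet H))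
    {K : Subalgebra F (Matrix (Fin 10) (Fin 10) F)} (hK : IsFieldSubalgebra 2 K)
    (hadj : IsAdjointClosedFor (polar Q) K) (hN : H ≤ subalgebraNormalizer K) : Target Q H := by
  have heq : H = subalgebraNormalizer K ⊓ omegaGL Q :=
    H925.eq_inf_of_isMaximalIn hH hN
      (H925.omegaGL_not_le_subalgebraNormalizer hQ (by rw [Fintype.card_fin]; norm_num) le_rfl hK)
  by_cases hsa : IsSelfAdjointFor (polar Q) K
  · have h2 : (2 : F) ≠ 0 := by
      intro h2
      obtain ⟨m, hm, hev⟩ := even_dim_of_selfAdjoint hQ.polar_bilinear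
        (fun v => by rw [polar_self_two hQ, h2, zero_mul]) hQ.nondegenerate h2 hK hsa
      rw [Fintype.card_fin] at hm
      have : m = 5 := by omega
      rw [this] at hev
      exact absurd hev (by decide)
    unfold Target
    iterate 10 right
    left
    exact ⟨odd_card_iff.2 h2, K, hK, hsa, heq⟩
  · unfold Target
    iterate 11 right
    left
    exact ⟨K, hK, hadj, hsa, similarity_of_deg_two hQ (by rw [Fintype.card_fin]; norm_num) (iso_of_max hH) hirr hK hN
      hadj hsa, heq⟩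

theorem t_c3 (hQ : IsNondegenerateQuadraticForm Q) (hminus : ¬ IsPlusTypeOn Q ⊤)
    (hH : IsMaximalIn (omegaGL Q) H) (hirr : ActsIrreducibly (matrixSet H)) {r : ℕ} (hr : r.Prime)
    {K : Subalgebra F (Matrix (Fin 10) (Fin 10) F)} (hK : IsFieldSubalgebra r K)
    (hadj : IsAdjointClosedFor (polar Q) K) (hN : H ≤ subalgebraNormalizer K) : Target Q H := by
  have hdvd : r ∣ 10 := by
    have := Cfsg.Agent.H912.finrank_dvd_of_fieldSub hK
    rwa [Fintype.card_fin] at this
  obtain rfl | rfl : r = 2 ∨ r = 5 := by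
    have hle := Nat.le_of_dvd (by norm_num) hdvd
    interval_cases r <;> first | omega | (exact absurd hr (by norm_num))
  · exact t_c3_two hQ hH hirr hK hadj hN
  · have hsa := selfAdjoint_of_odd (hermForm_polar hQ) (by decide) hK hadj
    rcases half_degree hQ hirr (iso_of_max hH) hK hsa (by rw [Fintype.card_fin]) hN with
      ⟨t, m, D, hD, hHD, -⟩ | ⟨m, D, hD, hs, hHD⟩ | ⟨K₂, hK₂, hadj₂, hN₂⟩
    · exact t_c2a hQ hminus hH
        (Cfsg.Agent.H922.isOrthogonalMDecomposition_of_irreducible hirr (iso_of_max hH) hD hHD) hHD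
    · exact (t_c2b hminus hD (H925.quad_pair hQ (iso_of_max hH) hirr (by rw [Fintype.card_fin]; norm_num) hD hs
        hHD)).elim
    · exact t_c3_two hQ hH hirr hK₂ hadj₂ hN₂

theorem t_c4 (hQ : IsNondegenerateQuadraticForm Q) (hminus : ¬ IsPlusTypeOn Q ⊤)
    (hH : IsMaximalIn (omegaGL Q) H) (hirr : ActsIrreducibly (matrixSet H))
    {e : Fin 10 ≃ Fin 5 × Fin 2} {P : Matrix.GeneralLinearGroup (Fin 10) F} {ε : F}
    {f₁ : (Fin 5 → F) → (Fin 5 → F) → F} {f₂ : (Fin 2 → F) → (Fin 2 → F) → F} (hε : ε = 1 ∨ ε = -1)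
    (h1 : HermForm (RingEquiv.refl F) ε f₁) (h2 : HermForm (RingEquiv.refl F) ε f₂)
    (hT : IsTensorFormStructure id (polar Q) f₁ f₂ e P) (hle : H ≤ tensorProductSubgroup 5 2 e P) :
    Target Q H := by
  have hiso := fun g (hg : g ∈ H) => polar_iso (iso_of_max hH hg)
  -- no alternating form in dimension five
  have hno : ¬ ∀ v, f₁ v v = 0 := by
    intro halt
    have hb : IsBilinearForm f₁ := ⟨h1.add_left, h1.smul_left, h1.add_right, fun c x y => by
      rw [h1.smul_right]; rfl⟩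
    have hnd : IsNondegenerateOn f₁ ⊤ := by
      intro w _ hw
      obtain ⟨⟨x, hx⟩, ⟨y, hy⟩⟩ := h1.nondegenerate w hw
      exact ⟨⟨x, trivial, hx⟩, ⟨y, trivial, hy⟩⟩
    have := even_on hb ⊤ (fun v _ => halt v) hnd
    rw [finrank_top, Module.finrank_fintype_fun_eq_card, Fintype.card_fin] at this
    exact absurd this (by decide)
  by_cases h20 : (2 : F) = 0
  · exfalso
    apply hno
    refine Cfsg.Agent.H912.second_alternating h20 (n₁ := 2) (n₂ := 5) (by norm_num) (by norm_num) h2 h1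
      (e := e.trans (Equiv.prodComm (Fin 5) (Fin 2))) (P := P) (f := polar Q) ?_ hirr ?_ hiso
    · exact Cfsg.Agent.H912.isTensorFormStructure_swap hT
    · rw [Cfsg.Agent.H912.tensorProductSubgroup_swap]; exact hle
  · have hε1 : ε = 1 := by
      rcases hε with h | h
      · exact h
      · exfalso
        apply hno
        intro v
        have h3 := h1.herm v v
        rw [h] at h3
        have h4 : 2 * f₁ v v = 0 := by
          have h5 : f₁ v v = -1 * f₁ v v := h3
          linear_combination h5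
        exact (mul_eq_zero.1 h4).resolve_left h20
    subst hε1
    rcases Cfsg.Agent.H924.cases_of_tensor_two h20 (hermForm_polar hQ) hirr hiso (n₁ := 5) (by norm_num) h1 h2 hT hle
      with ⟨t, m, D, hD, hHD, -⟩ | ⟨m, D, hD, hs, hHD⟩ | ⟨r, K, hr, hK, hadj, hN⟩
    · exact t_c2a hQ hminus hH
        (Cfsg.Agent.H922.isOrthogonalMDecomposition_of_irreducible hirr (iso_of_max hH) hD hHD) hHD
    · exact (t_c2b hminus hD (H925.quad_pair hQ (iso_of_max hH) hirr (by rw [Fintype.card_fin]; norm_num) hD hs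
        hHD)).elim
    · exact t_c3 hQ hminus hH hirr hr hK hadj hN

theorem ne_top_of_card {F₁ : Subfield F} {r : ℕ} (hr : r.Prime) (hcard : Fintype.card F = Nat.card F₁ ^ r) :
    F₁ ≠ ⊤ := by
  rintro rfl
  have h6 : Nat.card (⊤ : Subfield F) = Fintype.card F := by
    rw [← Nat.card_eq_fintype_card]
    exact Nat.card_congr Subfield.topEquiv.toEquiv
  rw [h6] at hcard
  have h7 : 1 < Fintype.card F := Fintype.one_lt_card
  have h8 : Fintype.card F ^ 1 < Fintype.card F ^ r := Nat.pow_lt_pow_right h7 hr.one_lt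
  rw [pow_one, ← hcard] at h8
  exact lt_irrefl _ h8

theorem t_c5 (hQ : IsNondegenerateQuadraticForm Q) (hminus : ¬ IsPlusTypeOn Q ⊤)
    (hH : IsMaximalIn (omegaGL Q) H) (hirr : ActsIrreducibly (matrixSet H)) {F₁ : Subfield F} {r : ℕ}
    {B : Matrix.GeneralLinearGroup (Fin 10) F} {ζ : F} (hr : r.Prime)
    (hcard : Fintype.card F = Nat.card F₁ ^ r) (hζ : ζ ≠ 0) (hR : IsFormRationalStructure (polar Q) F₁ ζ B)
    (hle : H ≤ subfieldSubgroup F₁ B) : Target Q H := by
  have hQR := quadRational_of_formRational hQ (by rw [Fintype.card_fin]; norm_num) (iso_of_max hH) hirr hle hζ hR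
  have hrodd : Odd r := by
    rcases hr.eq_two_or_odd' with rfl | h
    · exact absurd (plusType_of_index_two hQ (by rw [Fintype.card_fin]; decide) hcard hζ hQR) hminus
    · exact h
  unfold Target
  iterate 12 right
  left
  exact ⟨F₁, r, B, ζ, hr, hrodd, hcard, hζ, hQR, H925.eq_inf_of_isMaximalIn hH hle
    (H925.omegaGL_not_le_subfieldSubgroup hQ (by rw [Fintype.card_fin]; norm_num) (ne_top_of_card hr hcard) B)⟩

theorem t_irreducible (hQ : IsNondegenerateQuadraticForm Q) (hminus : ¬ IsPlusTypeOn Q ⊤)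
    (hH : IsMaximalIn (omegaGL Q) H) (hirr : ActsIrreducibly (matrixSet H)) : Target Q H := by
  rcases H925.orth_irreducible_fine (by rw [Fintype.card_fin]; norm_num) hQ (iso_of_max hH) hirr with
    ⟨t, m, D, -, hD, hHD, -⟩ | ⟨m, D, -, hD, hs, -⟩ | ⟨r, K, hr, -, hK, hadj, hN⟩ |
    ⟨n₁, n₂, e, P, ε, f₁, f₂, hn₁, hn₂, hn, hε, h1, h2, hT, hle⟩ |
    ⟨F₁, r, B, ζ, -, hr, hcard, hζ, hR, hle⟩ | ⟨r, m, R, -, -, -, -, hRr, -, -, hrm, -⟩ |
    ⟨m, t, e, P, E, hmt, hW⟩ | hres
  · exact t_c2a hQ hminus hH hD hHD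
  · exact (t_c2b hminus hD hs).elim
  · exact t_c3 hQ hminus hH hirr hr hK hadj hN
  · rw [Fintype.card_fin] at hn
    obtain ⟨rfl, rfl⟩ | ⟨rfl, rfl⟩ : (n₁ = 5 ∧ n₂ = 2) ∨ (n₁ = 2 ∧ n₂ = 5) := by
      have : n₁ ≤ 5 := by nlinarith
      interval_cases n₁ <;> omega
    · exact t_c4 hQ hminus hH hirr hε h1 h2 hT hle
    · refine t_c4 hQ hminus hH hirr hε h2 h1 (Cfsg.Agent.H912.isTensorFormStructure_swap hT) ?_
      rw [Cfsg.Agent.H912.tensorProductSubgroup_swap]
      exact hle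
  · refine t_c5 hQ hminus hH hirr hr ?_ hζ hR hle
    rw [← Nat.card_eq_fintype_card]
    exact hcard
  · exfalso
    rw [Fintype.card_fin] at hrm
    have hr := hRr.prime
    have h2 : 2 ∣ r := Nat.prime_two.dvd_of_dvd_pow (n := m) (by rw [← hrm]; norm_num)
    have h5 : 5 ∣ r := (by norm_num : Nat.Prime 5).dvd_of_dvd_pow (n := m) (by rw [← hrm]; norm_num)
    have h2' := (Nat.prime_dvd_prime_iff_eq Nat.prime_two hr).1 h2
    have h5' := (Nat.prime_dvd_prime_iff_eq (by norm_num) hr).1 h5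
    omega
  · exfalso
    rw [Fintype.card_fin] at hmt
    have h2t := hW.two_le_t
    have h2 : 2 ∣ m := Nat.prime_two.dvd_of_dvd_pow (n := t) (by rw [hmt]; norm_num)
    have h4 : 2 ^ 2 ∣ 10 := by
      rw [← hmt]
      exact (pow_dvd_pow_of_dvd h2 2).trans (pow_dvd_pow m h2t)
    omega
  · unfold Target
    iterate 13 right
    exact hres

theorem t_nonsing_line (hQ : IsNondegenerateQuadraticForm Q)
    (hH : IsMaximalIn (omegaGL Q) H) {v : Fin 10 → F} (hv : Q v ≠ 0)
    (hHv : H ≤ subspaceStabilizer (Submodule.span F {v})) : Target Q H := by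
  have hv0 : v ≠ 0 := by
    rintro rfl
    exact hv (Q_zero hQ)
  have hbot : Submodule.span F {v} ≠ ⊥ := by
    rw [Ne, Submodule.span_singleton_eq_bot]
    exact hv0
  have h1 : Module.finrank F (Submodule.span F {v}) = 1 := finrank_span_singleton hv0
  have htop : Submodule.span F {v} ≠ ⊤ := by
    intro h
    rw [h, finrank_top, Module.finrank_fintype_fun_eq_card, Fintype.card_fin] at h1
    omega
  have heq : H = subspaceStabilizer (Submodule.span F {v}) ⊓ omegaGL Q :=
    H925.eq_inf_of_isMaximalIn hH hHv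
      (H925.omegaGL_not_le_subspaceStabilizer hQ (by rw [Fintype.card_fin]; norm_num) hbot htop)
  by_cases h2 : (2 : F) = 0
  · unfold Target
    iterate 5 right
    left
    exact ⟨card_even_iff_two_eq_zero.2 h2, v, hv, heq⟩
  · unfold Target
    right
    left
    refine ⟨odd_card_iff.2 h2, _, hbot, htop, by rw [h1]; decide, by rw [h1]; norm_num, ?_, heq⟩
    intro w hw hw0
    obtain ⟨c, rfl⟩ := Submodule.mem_span_singleton.1 hw
    have hc : c ≠ 0 := by
      rintro rfl
      exact hw0 (zero_smul _ _)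
    have h3 : polar Q (c • v) (c • v) ≠ 0 := by
      rw [polar_self_two hQ, hQ.smul]
      exact mul_ne_zero h2 (mul_ne_zero (pow_ne_zero _ hc) hv)
    exact ⟨⟨_, hw, h3⟩, ⟨_, hw, h3⟩⟩

theorem t_nondeg (hQ : IsNondegenerateQuadraticForm Q)
    (hH : IsMaximalIn (omegaGL Q) H) {W : Submodule F (Fin 10 → F)} (hW0 : W ≠ ⊥)
    (hW : IsNondegenerateOn (polar Q) W) (hd : 2 * Module.finrank F W < 10)
    (hHW : H ≤ subspaceStabilizer W) : Target Q H := by
  have hpos : 0 < Module.finrank F W := by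
    rw [Nat.pos_iff_ne_zero, Ne, Submodule.finrank_eq_zero]
    exact hW0
  have htop : W ≠ ⊤ := by
    rintro rfl
    rw [finrank_top, Module.finrank_fintype_fun_eq_card, Fintype.card_fin] at hd
    omega
  have heq : H = subspaceStabilizer W ⊓ omegaGL Q :=
    H925.eq_inf_of_isMaximalIn hH hHW
      (H925.omegaGL_not_le_subspaceStabilizer hQ (by rw [Fintype.card_fin]; norm_num) hW0 htop)
  by_cases hodd : Odd (Module.finrank F W)
  · have h2 := two_ne_of_odd_dim hQ hW hodd
    unfold Target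
    right
    left
    exact ⟨odd_card_iff.2 h2, W, hW0, htop, hodd, by omega, hW, heq⟩
  · obtain h2 | h4 : Module.finrank F W = 2 ∨ Module.finrank F W = 4 := by
      rw [Nat.not_odd_iff_even] at hodd
      obtain ⟨k, hk⟩ := hodd
      omega
    · by_cases hp : IsPlusTypeOn Q W
      · by_cases h4 : 4 ≤ Fintype.card F
        · unfold Target
          iterate 3 right
          left
          exact ⟨h4, W, h2, hW, hp, heq⟩
        · obtain ⟨x, hx, hle⟩ := plus_plane_small (by omega) hQ hW h2 hp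
          exact t_nonsing_line hQ hH (v := x) (by rw [hx]; exact one_ne_zero)
            ((le_inf hHW (iso_of_max hH)).trans hle)
      · unfold Target
        iterate 2 right
        left
        exact ⟨W, h2, hW, hp, heq⟩
    · unfold Target
      iterate 4 right
      left
      exact ⟨W, h4, hW, heq⟩

theorem t_two_five (hQ : IsNondegenerateQuadraticForm Q) (hminus : ¬ IsPlusTypeOn Q ⊤)
    (hH : IsMaximalIn (omegaGL Q) H) {D : Fin 2 → Submodule F (Fin 10 → F)}
    (hD : IsNondegenerateMDecomposition (polar Q) 5 D) (hHD : H ≤ decompositionStabilizer D) : Target Q H := by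
  have h2 : (2 : F) ≠ 0 := two_ne_of_odd_dim hQ (hD.nondegenerate 0) (by rw [hD.decomp.finrank_eq]; decide)
  have hne : ∀ i, D i ≠ ⊥ := by
    intro i h
    have := hD.decomp.finrank_eq i
    rw [h, finrank_bot] at this
    omega
  have heq : H = decompositionStabilizer D ⊓ omegaGL Q :=
    H925.eq_inf_of_isMaximalIn hH hHD
      (H925.omegaGL_not_le_decompositionStabilizer hQ (by rw [Fintype.card_fin]; norm_num) le_rfl hne hD.decomp.indep)
  have hsymm : AreIsometricFor Q (D 0) (D 1) → IsOrthogonalMDecomposition Q 5 D := by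
    rintro ⟨e, he⟩
    refine ⟨hD, fun i j => ?_⟩
    fin_cases i <;> fin_cases j
    · exact ⟨LinearEquiv.refl _ _, fun w => rfl⟩
    · exact ⟨e, he⟩
    · refine ⟨e.symm, fun w => ?_⟩
      have := he (e.symm w)
      rw [LinearEquiv.apply_symm_apply] at this
      exact this.symm
    · exact ⟨LinearEquiv.refl _ _, fun w => rfl⟩
  rcases card_mod_four h2 with h | h
  · unfold Target
    iterate 9 right
    left
    refine ⟨h, D, hD, fun hiso => ?_, heq⟩
    exact hminus (plus_of_isometric_square hQ h2 (by decide) (hsymm hiso)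
      (FiniteField.isSquare_neg_one_iff.2 (by omega)))
  · have hns : ¬ IsSquare (-1 : F) := by
      rw [FiniteField.isSquare_neg_one_iff, not_not]
      exact h
    unfold Target
    iterate 8 right
    left
    exact ⟨h, D, hsymm (isometric_of_minus hQ h2 hminus (by decide) (by rw [Fintype.card_fin]) hD hns), heq⟩

theorem t_reducible (hQ : IsNondegenerateQuadraticForm Q) (hminus : ¬ IsPlusTypeOn Q ⊤)
    (hH : IsMaximalIn (omegaGL Q) H) (hred : ¬ ActsIrreducibly (matrixSet H)) : Target Q H := by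
  rcases Cfsg.Agent.H924.reducible_cases (hermForm_polar hQ) (fun g hg => polar_iso (iso_of_max hH hg)) hred with
    ⟨W, hW0, hW, hHW⟩ | ⟨W, hW0, hW, hd, hHW⟩ | ⟨k, D, hD, hHD, -, -⟩
  · rcases sing_or_line hQ (iso_of_max hH) hW0 hW hHW with ⟨W', hW'0, hW', hHW'⟩ | ⟨-, v, hv, hHv⟩
    · have htop : W' ≠ ⊤ := by
        rintro rfl
        have := H925.two_mul_finrank_le hQ hW'
        rw [finrank_top, Module.finrank_fintype_fun_eq_card, Fintype.card_fin] at this
        omega
      unfold Target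
      left
      exact ⟨W', hW'0, hW', H925.eq_inf_of_isMaximalIn hH hHW'
        (H925.omegaGL_not_le_subspaceStabilizer hQ (by rw [Fintype.card_fin]; norm_num) hW'0 htop)⟩
    · exact t_nonsing_line hQ hH hv hHv
  · rw [Fintype.card_fin] at hd
    exact t_nondeg hQ hH hW0 hW hd hHW
  · have hk := Cfsg.Agent.H922.mul_eq_card hD.decomp
    rw [Fintype.card_fin] at hk
    obtain rfl : k = 5 := by omega
    exact t_two_five hQ hminus hH hD hHD

theorem target (hQ : IsNondegenerateQuadraticForm Q) (hminus : ¬ IsPlusTypeOn Q ⊤)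
    (hH : IsMaximalIn (omegaGL Q) H) : Target Q H := by
  by_cases h : ActsIrreducibly (matrixSet H)
  · exact t_irreducible hQ hminus hH h
  · exact t_reducible hQ hminus hH h

end

end Cfsg.Agent.H926
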