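import Cfsg.Agent.H926.MinusA
import Cfsg.Agent.H925.OrthPlane3

/-!
# Planes over the fields with two and three elements
-/

set_option autoImplicit false
set_option linter.unusedSectionVars false

namespace Cfsg.Agent.H926

open QuadraticMap Matrix Cfsg.Geo
open Cfsg.Agent.H922 (polar_symm)

variable {ι : Type} [Fintype ι] [DecidableEq ι] {F : Type*} [Field F]

/-- A plane that is not of plus type is anisotropic. -/
theorem anis_of_not_plus {Q : (ι → F) → F} (hQ : IsNondegenerateQuadraticForm Q) {W : Submodule F (ι → F)}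
    (hd : Module.finrank F W = 2) (hp : ¬ IsPlusTypeOn Q W) : ∀ v ∈ W, Q v = 0 → v = 0 := by
  intro v hv hQv
  by_contra hv0
  refine hp ⟨Submodule.span F {v}, (Submodule.span_singleton_le_iff_mem _ _).2 hv, ?_, ?_⟩
  · intro w hw
    obtain ⟨c, rfl⟩ := Submodule.mem_span_singleton.1 hw
    rw [hQ.smul, hQv, mul_zero]
  · rw [finrank_span_singleton hv0, hd]

theorem three_eq_zero [Fintype F] (hF : Fintype.card F = 3) : (3 : F) = 0 := by
  have := Nat.cast_card_eq_zero F
  rw [hF] at this
  exact_mod_cast this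

theorem cases_three [Fintype F] (hF : Fintype.card F = 3) (a : F) : a = 0 ∨ a = 1 ∨ a = -1 := by
  by_cases ha : a = 0
  · exact Or.inl ha
  · right
    have h := FiniteField.pow_card_sub_one_eq_one a ha
    rw [hF] at h
    have h' : a ^ 2 = 1 := h
    rcases sq_eq_one_iff_of_ne_zero_aux h' with h | h
    · exact Or.inl h
    · exact Or.inr h
where
  sq_eq_one_iff_of_ne_zero_aux {a : F} (h : a ^ 2 = 1) : a = 1 ∨ a = -1 := by
    have : (a - 1) * (a + 1) = 0 := by linear_combination h
    rcases mul_eq_zero.1 this with h | h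
    · exact Or.inl (sub_eq_zero.1 h)
    · exact Or.inr (eq_neg_of_add_eq_zero_left h)

/-- An anisotropic plane over the field with three elements has an orthonormal basis, unique up to signs. -/
theorem exists_frame_three [Fintype F] (hF : Fintype.card F = 3) {Q : (ι → F) → F}
    (hQ : IsNondegenerateQuadraticForm Q) {W : Submodule F (ι → F)}
    (hd : Module.finrank F W = 2) (han : ∀ v ∈ W, Q v = 0 → v = 0) :
    ∃ p ∈ W, ∃ r ∈ W, Q p = 1 ∧ Q r = 1 ∧ polar Q p r = 0 ∧
      ∀ v ∈ W, Q v = 1 → v = p ∨ v = -p ∨ v = r ∨ v = -r := by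
  have h3 := three_eq_zero hF
  have hbil := hQ.polar_bilinear
  have h2 : (2 : F) ≠ 0 := by
    intro h
    have : (1 : F) = 0 := by linear_combination h3 - h
    exact one_ne_zero this
  let b := Module.finBasisOfFinrankEq F W hd
  set u : ι → F := (b 0 : ι → F) with hu
  set b1 : ι → F := (b 1 : ι → F) with hb1
  have huW : u ∈ W := (b 0).2
  have hb1W : b1 ∈ W := (b 1).2
  have hu0 : u ≠ 0 := fun h => b.ne_zero 0 (Subtype.ext h)
  have hQu : Q u ≠ 0 := fun h => hu0 (han u huW h)
  have huu : polar Q u u ≠ 0 := by rw [polar_self_two hQ]; exact mul_ne_zero h2 hQu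
  set u' : ι → F := polar Q u u • b1 + (-(polar Q u b1)) • u with hu'
  have hu'W : u' ∈ W := W.add_mem (W.smul_mem _ hb1W) (W.smul_mem _ huW)
  have huu' : polar Q u u' = 0 := by
    rw [hu', hbil.add_right, hbil.smul_right, hbil.smul_right]; ring
  have hu'0 : u' ≠ 0 := by
    intro h
    have h4 : (-(polar Q u b1)) • b 0 + polar Q u u • b 1 = 0 := by
      apply Subtype.ext
      show (-(polar Q u b1)) • u + polar Q u u • b1 = 0
      rw [← h, hu']; abel
    have h5 := Fintype.linearIndependent_iff.1 b.linearIndependent ![-(polar Q u b1), polar Q u u]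
      (by rw [Fin.sum_univ_two]; exact h4) 1
    exact huu h5
  have hQu' : Q u' ≠ 0 := fun h => hu'0 (han u' hu'W h)
  have hsum : Q (u + u') = Q u + Q u' := by rw [Q_add' Q, huu', add_zero]
  have hsum0 : u + u' ≠ 0 := by
    intro h
    have : polar Q u (u + u') = polar Q u u := by rw [hbil.add_right, huu', add_zero]
    rw [h] at this
    apply huu
    rw [← this]
    simpa using hbil.smul_right 0 u u
  have hQsum : Q u + Q u' ≠ 0 := by
    rw [← hsum]
    exact fun h => hsum0 (han _ (W.add_mem huW hu'W) h)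
  have hfr : ∃ p ∈ W, ∃ r ∈ W, Q p = 1 ∧ Q r = 1 ∧ polar Q p r = 0 := by
    rcases cases_three hF (Q u) with h | h | h
    · exact absurd h hQu
    · rcases cases_three hF (Q u') with h' | h' | h'
      · exact absurd h' hQu'
      · exact ⟨u, huW, u', hu'W, h, h', huu'⟩
      · rw [h, h'] at hQsum; exact absurd (by ring) hQsum
    · rcases cases_three hF (Q u') with h' | h' | h'
      · exact absurd h' hQu'
      · rw [h, h'] at hQsum; exact absurd (by ring) hQsum
      · refine ⟨u + u', W.add_mem huW hu'W, u + (-1 : F) • u', W.add_mem huW (W.smul_mem _ hu'W), ?_, ?_, ?_⟩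
        · rw [hsum, h, h']; linear_combination -h3
        · rw [Q_add' Q, hbil.smul_right, huu', hQ.smul, h, h']; linear_combination -h3
        · rw [hbil.add_left, hbil.add_right, hbil.add_right, hbil.smul_right, hbil.smul_right, huu',
            polar_symm Q u' u, huu', polar_self_two hQ, polar_self_two hQ, h, h']
          ring
  obtain ⟨p, hp, r, hr, hQp, hQr, hpr⟩ := hfr
  refine ⟨p, hp, r, hr, hQp, hQr, hpr, fun v hv hQv => ?_⟩
  have hpp : polar Q p p = 2 := by rw [polar_self_two hQ, hQp, mul_one]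
  have hrr : polar Q r r = 2 := by rw [polar_self_two hQ, hQr, mul_one]
  have hrp : polar Q r p = 0 := by rw [polar_symm]; exact hpr
  have hli : LinearIndependent F ![p, r] := by
    rw [LinearIndependent.pair_iff]
    intro s t hst
    have e1 : polar Q p (s • p + t • r) = 2 * s := by
      rw [hbil.add_right, hbil.smul_right, hbil.smul_right, hpp, hpr]; ring
    have e2 : polar Q r (s • p + t • r) = 2 * t := by
      rw [hbil.add_right, hbil.smul_right, hbil.smul_right, hrp, hrr]; ring
    have z : ∀ x : ι → F, polar Q x 0 = 0 := fun x => by simpa using hbil.smul_right 0 x x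
    rw [hst, z] at e1 e2
    exact ⟨(mul_eq_zero.1 e1.symm).resolve_left h2, (mul_eq_zero.1 e2.symm).resolve_left h2⟩
  obtain ⟨c, hc0, hc1⟩ := H925.exists_basis_plane hd hp hr hli
  obtain ⟨x, y, hxy⟩ : ∃ x y : F, v = x • p + y • r := by
    refine ⟨c.repr ⟨v, hv⟩ 0, c.repr ⟨v, hv⟩ 1, ?_⟩
    have h6 := congrArg (Subtype.val) (c.sum_repr ⟨v, hv⟩)
    rw [Fin.sum_univ_two] at h6
    rw [← hc0, ← hc1]
    exact h6.symm
  have hval : Q v = x ^ 2 + y ^ 2 := by
    rw [hxy, Q_add' Q, hQ.smul, hQ.smul, hbil.smul_left, hbil.smul_right, hQp, hQr, hpr]; ring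
  rw [hval] at hQv
  rcases cases_three hF x with hx | hx | hx <;> rcases cases_three hF y with hy | hy | hy
  · exfalso; rw [hx, hy] at hQv; apply zero_ne_one (α := F); rw [← hQv]; ring
  · right; right; left; rw [hxy, hx, hy]; module
  · right; right; right; rw [hxy, hx, hy]; module
  · left; rw [hxy, hx, hy]; module
  · exfalso; rw [hx, hy] at hQv; apply one_ne_zero (α := F); linear_combination hQv
  · exfalso; rw [hx, hy] at hQv; apply one_ne_zero (α := F); linear_combination hQv
  · right; left; rw [hxy, hx, hy]; module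
  · exfalso; rw [hx, hy] at hQv; apply one_ne_zero (α := F); linear_combination hQv
  · exfalso; rw [hx, hy] at hQv; apply one_ne_zero (α := F); linear_combination hQv

/-- **q = 3**: the stabiliser of an orthogonal decomposition into anisotropic planes stabilises a frame. -/
theorem minus_planes_three [Fintype F] (hF : Fintype.card F = 3) {Q : (ι → F) → F}
    (hQ : IsNondegenerateQuadraticForm Q) {t : ℕ} {D : Fin t → Submodule F (ι → F)}
    (hD : IsOrthogonalMDecomposition Q 2 D) (hp : ∀ i, ¬ IsPlusTypeOn Q (D i)) :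
    ∃ D' : Fin (t * 2) → Submodule F (ι → F), IsOrthogonalMDecomposition Q 1 D' ∧
      decompositionStabilizer D ⊓ Cfsg.isometryGroup F Q ≤ decompositionStabilizer D' := by
  classical
  have h3 := three_eq_zero hF
  have h2 : (2 : F) ≠ 0 := by
    intro h
    have : (1 : F) = 0 := by linear_combination h3 - h
    exact one_ne_zero this
  choose p hpD r hrD hQp hQr hpr hone using
    fun i => exists_frame_three hF hQ (hD.decomp.decomp.finrank_eq i)
      (anis_of_not_plus hQ (hD.decomp.decomp.finrank_eq i) (hp i))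
  let f : Fin t → Fin 2 → (ι → F) := fun i => ![p i, r i]
  have hfD : ∀ i k, f i k ∈ D i := by
    intro i k
    fin_cases k
    · exact hpD i
    · exact hrD i
  have hQf : ∀ i k, Q (f i k) = 1 := by
    intro i k
    fin_cases k
    · exact hQp i
    · exact hQr i
  have hfone : ∀ i, ∀ v ∈ D i, Q v = 1 → ∃ k, v = f i k ∨ v = - f i k := by
    intro i v hv hQv
    rcases hone i v hv hQv with h | h | h | h
    · exact ⟨0, Or.inl h⟩
    · exact ⟨0, Or.inr h⟩
    · exact ⟨1, Or.inl h⟩
    · exact ⟨1, Or.inr h⟩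
  let E : Fin (t * 2) ≃ Fin t × Fin 2 := finProdFinEquiv.symm
  let v : Fin (t * 2) → (ι → F) := fun j => f (E j).1 (E j).2
  have hcard : t * 2 = Fintype.card ι := Cfsg.Agent.H922.mul_eq_card hD.decomp.decomp
  have horth : ∀ i j, i ≠ j → polar Q (v i) (v j) = 0 := by
    intro i j hij
    have hne : E i ≠ E j := fun h => hij (E.injective h)
    rcases h1 : E i with ⟨i1, i2⟩
    rcases h2' : E j with ⟨j1, j2⟩
    show polar Q (f (E i).1 (E i).2) (f (E j).1 (E j).2) = 0
    rw [h1, h2'] at hne ⊢
    show polar Q (f i1 i2) (f j1 j2) = 0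
    by_cases h : i1 = j1
    · subst h
      have hne2 : i2 ≠ j2 := fun h => hne (by rw [h])
      fin_cases i2 <;> fin_cases j2
      · exact absurd rfl hne2
      · exact hpr i1
      · show polar Q (r i1) (p i1) = 0
        rw [polar_symm]; exact hpr i1
      · exact absurd rfl hne2
    · exact hD.decomp.orthogonal i1 j1 h _ (hfD _ _) _ (hfD _ _)
  have hD' := Cfsg.Agent.H922.isOrthogonalMDecomposition_of_vectors hQ h2 hcard
    (by have := hD.decomp.decomp.two_le; omega) v one_ne_zero (fun i => hQf _ _) horth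
  refine ⟨_, hD', ?_⟩
  rintro g ⟨hgD, hgI⟩
  apply Cfsg.Agent.H922.mem_decompositionStabilizer_of_forall hD'.decomp.decomp
  intro i
  obtain ⟨σ, hσ⟩ := H925.exists_perm_of_mem hgD
  obtain ⟨k, hk⟩ := hfone (σ (E i).1) _ (hσ (E i).1 _ (hfD (E i).1 (E i).2)) (by rw [H925.mem_iso_iff.1 hgI, hQf])
  refine ⟨E.symm (σ (E i).1, k), ?_⟩
  have hvk : v (E.symm (σ (E i).1, k)) = f (σ (E i).1) k := by
    show f (E (E.symm (σ (E i).1, k))).1 (E (E.symm (σ (E i).1, k))).2 = _
    rw [Equiv.apply_symm_apply]
  rw [Submodule.map_span, Set.image_singleton, Matrix.toLin'_apply, hvk]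
  rcases hk with h | h
  · show Submodule.span F {(g : Matrix ι ι F) *ᵥ f (E i).1 (E i).2} = _
    rw [h]
  · show Submodule.span F {(g : Matrix ι ι F) *ᵥ f (E i).1 (E i).2} = _
    rw [h, ← Set.neg_singleton, Submodule.span_neg]

/-- Over a field with at most three elements, the stabiliser of a hyperbolic plane stabilises a nonsingular line. -/
theorem plus_plane_small [Fintype F] (hF : Fintype.card F ≤ 3) {Q : (ι → F) → F}
    (hQ : IsNondegenerateQuadraticForm Q) {W : Submodule F (ι → F)} (hW : IsNondegenerateOn (polar Q) W)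
    (hd : Module.finrank F W = 2) (hp : IsPlusTypeOn Q W) :
    ∃ x : ι → F, Q x = 1 ∧
      subspaceStabilizer W ⊓ Cfsg.isometryGroup F Q ≤ subspaceStabilizer (Submodule.span F {x}) := by
  obtain ⟨x, hx, y, hy, -, -, -, hspan, hval⟩ := H925.exists_hyp_of_plus hQ hW hd hp
  have hcard : 1 < Fintype.card F := Fintype.one_lt_card
  have hpm : ∀ a : F, a ≠ 0 → a = 1 ∨ a = -1 := by
    intro a ha
    have h := FiniteField.pow_card_sub_one_eq_one a ha
    have h' : a ^ 2 = 1 := by
      obtain h2 | h3 : Fintype.card F = 2 ∨ Fintype.card F = 3 := by omega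
      · rw [h2] at h
        rw [show a = 1 by simpa using h, one_pow]
      · rw [h3] at h
        exact h
    have h4 : (a - 1) * (a + 1) = 0 := by linear_combination h'
    rcases mul_eq_zero.1 h4 with h | h
    · exact Or.inl (sub_eq_zero.1 h)
    · exact Or.inr (eq_neg_of_add_eq_zero_left h)
  have hQxy : Q (x + y) = 1 := by
    have := hval 1 1
    rwa [one_smul, one_smul, one_mul] at this
  refine ⟨x + y, hQxy, ?_⟩
  rintro g ⟨hgW, hgI⟩
  apply Cfsg.Agent.H922.mem_subspaceStabilizer_of_forall
  intro v hv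
  obtain ⟨c, rfl⟩ := Submodule.mem_span_singleton.1 hv
  rw [Matrix.mulVec_smul]
  apply Submodule.smul_mem
  have h1 : (g : Matrix ι ι F) *ᵥ (x + y) ∈ W := (hgW (x + y)).1 (W.add_mem hx hy)
  obtain ⟨a, b, hab⟩ := hspan _ h1
  have h2 : a * b = 1 := by rw [← hval, ← hab, H925.mem_iso_iff.1 hgI, hQxy]
  have ha : a ≠ 0 := by
    rintro rfl
    rw [zero_mul] at h2
    exact zero_ne_one h2
  rw [hab]
  rcases hpm a ha with h | h
  · rw [h, one_mul] at h2
    rw [h, h2, one_smul, one_smul]
    exact Submodule.mem_span_singleton_self _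
  · have hb : b = -1 := by rw [h] at h2; linear_combination -h2
    rw [h, hb]
    refine Submodule.mem_span_singleton.2 ⟨-1, ?_⟩
    module

end Cfsg.Agent.H926
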