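import Cfsg.Agent.H105.Og.Defs

/-!
# The centralizer of the Singer element in the isometries (S2454, orthogonal rows, Lemma B)
-/

set_option autoImplicit false

namespace Cfsg.Agent.H926.OgCent

open QuadraticMap Matrix Module Subgroup Polynomial Cfsg.Agent.H105.Og

variable {F : Type} [Field F] {U : Type} [AddCommGroup U] [Module F U]

/-- the space -/
abbrev Sp (n : ℕ) (F U : Type) : Type := ((Fin n → F) × (Fin n → F)) × U

/-- the map of `A` as an endomorphism -/
abbrev T {n : ℕ} (U : Type) [AddCommGroup U] [Module F U] (A : SpecialLinearGroup (Fin n) F) : Module.End F (Sp n F U) :=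
  (slL (Fin n) F U A : Sp n F U →ₗ[F] Sp n F U)

theorem T_apply {n : ℕ} (A : SpecialLinearGroup (Fin n) F) (v : Sp n F U) :
    T U A v = ((A.1 *ᵥ v.1.1, ((A⁻¹).1)ᵀ *ᵥ v.1.2), v.2) := rfl

theorem T_pow {n : ℕ} (A : SpecialLinearGroup (Fin n) F) (k : ℕ) (v : Sp n F U) :
    (T U A ^ k) v = (((A.1 ^ k) *ᵥ v.1.1, ((((A⁻¹).1)ᵀ) ^ k) *ᵥ v.1.2), v.2) := by
  induction k with
  | zero => simp
  | succ k ih =>
    rw [pow_succ', Module.End.mul_apply, ih, T_apply]
    refine Prod.ext (Prod.ext ?_ ?_) rfl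
    · show A.1 *ᵥ ((A.1 ^ k) *ᵥ v.1.1) = _
      rw [Matrix.mulVec_mulVec, ← pow_succ']
    · show ((A⁻¹).1)ᵀ *ᵥ (((((A⁻¹).1)ᵀ) ^ k) *ᵥ v.1.2) = _
      rw [Matrix.mulVec_mulVec, ← pow_succ']

theorem T_aeval {n : ℕ} (A : SpecialLinearGroup (Fin n) F) (P : F[X]) (v : Sp n F U) :
    (aeval (T U A) P) v =
      (((aeval A.1 P) *ᵥ v.1.1, (aeval (((A⁻¹).1)ᵀ) P) *ᵥ v.1.2), P.eval 1 • v.2) := by
  induction P using Polynomial.induction_on' with
  | add p q hp hq =>
    rw [map_add, LinearMap.add_apply, hp, hq, map_add, map_add, eval_add]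
    refine Prod.ext (Prod.ext ?_ ?_) ?_
    · exact (Matrix.add_mulVec (aeval A.1 p) (aeval A.1 q) v.1.1).symm
    · exact (Matrix.add_mulVec (aeval (((A⁻¹).1)ᵀ) p) (aeval (((A⁻¹).1)ᵀ) q) v.1.2).symm
    · exact (add_smul _ _ _).symm
  | monomial k a =>
    rw [aeval_monomial, aeval_monomial, aeval_monomial, Module.End.mul_apply, T_pow, eval_monomial, one_pow, mul_one,
      Module.algebraMap_end_apply]
    refine Prod.ext (Prod.ext ?_ ?_) rfl
    · show a • ((A.1 ^ k) *ᵥ v.1.1) = (algebraMap F _ a * A.1 ^ k) *ᵥ v.1.1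
      rw [← Matrix.mulVec_mulVec, Algebra.algebraMap_eq_smul_one, Matrix.smul_mulVec, Matrix.one_mulVec]
    · show a • (((((A⁻¹).1)ᵀ) ^ k) *ᵥ v.1.2) = (algebraMap F _ a * (((A⁻¹).1)ᵀ) ^ k) *ᵥ v.1.2
      rw [← Matrix.mulVec_mulVec, Algebra.algebraMap_eq_smul_one, Matrix.smul_mulVec, Matrix.one_mulVec]

theorem aeval_tr {n : ℕ} (M : Matrix (Fin n) (Fin n) F) (P : F[X]) : aeval (Mᵀ) P = (aeval M P)ᵀ := by
  induction P using Polynomial.induction_on' with
  | add p q hp hq => rw [map_add, hp, hq, map_add, Matrix.transpose_add]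
  | monomial k a =>
    rw [aeval_monomial, aeval_monomial, Algebra.algebraMap_eq_smul_one, Matrix.smul_mul, Matrix.smul_mul, one_mul,
      one_mul, Matrix.transpose_smul, Matrix.transpose_pow]

theorem inj_tr {n : ℕ} {M : Matrix (Fin n) (Fin n) F} (h : ∀ x, M *ᵥ x = 0 → x = 0) : ∀ x, Mᵀ *ᵥ x = 0 → x = 0 := by
  intro x hx
  by_contra hx0
  have h1 : (Mᵀ).det = 0 := Matrix.exists_mulVec_eq_zero_iff.1 ⟨x, hx0, hx⟩
  rw [Matrix.det_transpose] at h1
  obtain ⟨y, hy, hy'⟩ := Matrix.exists_mulVec_eq_zero_iff.2 h1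
  exact hy (h y hy')

theorem comm_inv {n : ℕ} (A : SpecialLinearGroup (Fin n) F) {y : Module.End F (Sp n F U)} (h : Commute (T U A) y) :
    Commute (T U A⁻¹) y := by
  have h1 : T U A⁻¹ * T U A = 1 := by
    apply LinearMap.ext
    intro v
    have : slL (Fin n) F U A⁻¹ * slL (Fin n) F U A = 1 := by rw [← map_mul, inv_mul_cancel, map_one]
    exact LinearEquiv.congr_fun this v
  have h2 : T U A * T U A⁻¹ = 1 := by
    apply LinearMap.ext
    intro v
    have : slL (Fin n) F U A * slL (Fin n) F U A⁻¹ = 1 := by rw [← map_mul, mul_inv_cancel, map_one]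
    exact LinearEquiv.congr_fun this v
  show T U A⁻¹ * y = y * T U A⁻¹
  calc T U A⁻¹ * y = T U A⁻¹ * (y * (T U A * T U A⁻¹)) := by rw [h2, mul_one]
    _ = T U A⁻¹ * ((y * T U A) * T U A⁻¹) := by rw [mul_assoc y]
    _ = T U A⁻¹ * ((T U A * y) * T U A⁻¹) := by rw [h.eq]
    _ = (T U A⁻¹ * T U A) * y * T U A⁻¹ := by simp only [mul_assoc]
    _ = y * T U A⁻¹ := by rw [h1, one_mul]

section main

variable {n : ℕ} {R : QuadraticForm F U} {A : SpecialLinearGroup (Fin n) F} {P : F[X]}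

/-- the hypotheses -/
structure Hyp (R : QuadraticForm F U) (A : SpecialLinearGroup (Fin n) F) (P : F[X]) (y : Module.End F (Sp n F U)) : Prop where
  hP : aeval A.1 P = 0
  hP' : ∀ x : Fin n → F, (aeval (A⁻¹).1 P) *ᵥ x = 0 → x = 0
  hP1 : P.eval 1 ≠ 0
  hc : Commute (T U A) y
  hq : ∀ v, HU (Fin n) R (y v) = HU (Fin n) R v

variable {y : Module.End F (Sp n F U)}

theorem Hyp.fst (h : Hyp R A P y) (x : Fin n → F) : (y ((x, 0), 0)).1.2 = 0 ∧ (y ((x, 0), 0)).2 = 0 := by
  have h1 : Commute (aeval (T U A) P) y := by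
    refine Polynomial.induction_on' P ?_ ?_
    · intro p q hp hq
      rw [map_add]
      exact hp.add_left hq
    · intro k a
      rw [aeval_monomial]
      exact Commute.mul_left (Algebra.commutes a y) (h.hc.pow_left k)
  have h2 : (aeval (T U A) P) (y ((x, 0), 0)) = 0 := by
    have h3 : (aeval (T U A) P) (y ((x, 0), 0)) = y ((aeval (T U A) P) ((x, 0), 0)) := LinearMap.congr_fun h1.eq _
    rw [h3, T_aeval, h.hP]
    have h4 : (((((0 : Matrix (Fin n) (Fin n) F) *ᵥ x, (aeval (((A⁻¹).1)ᵀ) P) *ᵥ (0 : Fin n → F)), P.eval 1 • (0 : U))) :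
        Sp n F U) = 0 := by
      rw [Matrix.zero_mulVec, Matrix.mulVec_zero, smul_zero]
      rfl
    exact (congrArg y h4).trans (map_zero y)
  rw [T_aeval] at h2
  have h4 := congrArg (fun v : Sp n F U => v.1.2) h2
  have h5 := congrArg (fun v : Sp n F U => v.2) h2
  dsimp only at h4 h5
  refine ⟨?_, ?_⟩
  · apply inj_tr h.hP'
    rw [← aeval_tr]
    exact h4
  · exact (smul_eq_zero.1 h5).resolve_left h.hP1

theorem Hyp.snd (h : Hyp R A P y) (x : Fin n → F) : (y ((0, x), 0)).1.1 = 0 ∧ (y ((0, x), 0)).2 = 0 := by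
  have h1 : Commute (aeval (T U A⁻¹) P) y := by
    refine Polynomial.induction_on' P ?_ ?_
    · intro p q hp hq
      rw [map_add]
      exact hp.add_left hq
    · intro k a
      rw [aeval_monomial]
      exact Commute.mul_left (Algebra.commutes a y) ((comm_inv A h.hc).pow_left k)
  have h2 : (aeval (T U A⁻¹) P) (y ((0, x), 0)) = 0 := by
    have h3 : (aeval (T U A⁻¹) P) (y ((0, x), 0)) = y ((aeval (T U A⁻¹) P) ((0, x), 0)) := LinearMap.congr_fun h1.eq _
    rw [h3, T_aeval, inv_inv, aeval_tr, h.hP]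
    have h4 : (((((aeval (A⁻¹).1 P) *ᵥ (0 : Fin n → F), (0 : Matrix (Fin n) (Fin n) F)ᵀ *ᵥ x), P.eval 1 • (0 : U))) :
        Sp n F U) = 0 := by
      rw [Matrix.transpose_zero, Matrix.zero_mulVec, Matrix.mulVec_zero, smul_zero]
      rfl
    exact (congrArg y h4).trans (map_zero y)
  rw [T_aeval] at h2
  have h4 := congrArg (fun v : Sp n F U => v.1.1) h2
  have h5 := congrArg (fun v : Sp n F U => v.2) h2
  dsimp only at h4 h5
  refine ⟨?_, ?_⟩
  · exact h.hP' _ h4
  · exact (smul_eq_zero.1 h5).resolve_left h.hP1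

theorem Hyp.third (h : Hyp R A P y) (u : U) : (y ((0, 0), u)).1 = 0 := by
  have h2 : T U A (y ((0, 0), u)) = y ((0, 0), u) := by
    have h3 : T U A (y ((0, 0), u)) = y (T U A ((0, 0), u)) := LinearMap.congr_fun h.hc.eq _
    rw [h3, T_apply]
    simp
  rw [T_apply] at h2
  have h4 := congrArg (fun v : Sp n F U => v.1.1) h2
  have h5 := congrArg (fun v : Sp n F U => v.1.2) h2
  dsimp only at h4 h5
  -- a fixed vector of a matrix killed by `P` with `P(1) ≠ 0` is zero
  have key : ∀ (M : Matrix (Fin n) (Fin n) F) (w : Fin n → F), aeval M P = 0 → M *ᵥ w = w → w = 0 := by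
    intro M w hM hw
    have h6 : ∀ Q : F[X], (aeval M Q) *ᵥ w = Q.eval 1 • w := by
      intro Q
      induction Q using Polynomial.induction_on' with
      | add p q hp hq => rw [map_add, Matrix.add_mulVec, hp, hq, eval_add, add_smul]
      | monomial k a =>
        have h7 : (M ^ k) *ᵥ w = w := by
          induction k with
          | zero => simp
          | succ k ih => rw [pow_succ, ← Matrix.mulVec_mulVec, hw, ih]
        rw [aeval_monomial, ← Matrix.mulVec_mulVec, h7, Algebra.algebraMap_eq_smul_one, Matrix.smul_mulVec,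
          Matrix.one_mulVec, eval_monomial, one_pow, mul_one]
    have h8 := h6 P
    rw [hM, Matrix.zero_mulVec] at h8
    exact (smul_eq_zero.1 h8.symm).resolve_left h.hP1
  refine Prod.ext ?_ ?_
  · exact key _ _ h.hP h4
  · apply key (A.1)ᵀ
    · rw [aeval_tr, h.hP, Matrix.transpose_zero]
    · have h9 : (A.1)ᵀ *ᵥ (((A⁻¹).1)ᵀ *ᵥ (y ((0, 0), u)).1.2) = (A.1)ᵀ *ᵥ (y ((0, 0), u)).1.2 :=
        congrArg (fun w => (A.1)ᵀ *ᵥ w) h5
      rw [Matrix.mulVec_mulVec, ← Matrix.transpose_mul, val_inv_mul, Matrix.transpose_one, Matrix.one_mulVec] at h9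
      exact h9.symm

/-- the three blocks -/
def b1 (y : Module.End F (Sp n F U)) : (Fin n → F) →ₗ[F] (Fin n → F) where
  toFun x := (y ((x, 0), 0)).1.1
  map_add' x x' := by
    have : (((x + x', 0), 0) : Sp n F U) = ((x, 0), 0) + ((x', 0), 0) := by simp
    rw [this, map_add]
    rfl
  map_smul' c x := by
    have : (((c • x, 0), 0) : Sp n F U) = c • ((x, 0), 0) := by simp
    rw [this, map_smul]
    rfl

def b2 (y : Module.End F (Sp n F U)) : (Fin n → F) →ₗ[F] (Fin n → F) where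
  toFun x := (y ((0, x), 0)).1.2
  map_add' x x' := by
    have : (((0, x + x'), 0) : Sp n F U) = ((0, x), 0) + ((0, x'), 0) := by simp
    rw [this, map_add]
    rfl
  map_smul' c x := by
    have : (((0, c • x), 0) : Sp n F U) = c • ((0, x), 0) := by simp
    rw [this, map_smul]
    rfl

def b3 (y : Module.End F (Sp n F U)) : Module.End F U where
  toFun u := (y ((0, 0), u)).2
  map_add' x x' := by
    have : (((0, 0), x + x') : Sp n F U) = ((0, 0), x) + ((0, 0), x') := by simp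
    rw [this, map_add]
    rfl
  map_smul' c x := by
    have : (((0, 0), c • x) : Sp n F U) = c • ((0, 0), x) := by simp
    rw [this, map_smul]
    rfl

theorem Hyp.blocks (h : Hyp R A P y) (v : Sp n F U) : y v = ((b1 y v.1.1, b2 y v.1.2), b3 y v.2) := by
  have h1 : v = ((v.1.1, 0), 0) + ((0, v.1.2), 0) + ((0, 0), v.2) := by
    refine Prod.ext (Prod.ext ?_ ?_) ?_ <;> simp
  have h2 : y v = y ((v.1.1, 0), 0) + y ((0, v.1.2), 0) + y ((0, 0), v.2) := by
    conv_lhs => rw [h1]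
    rw [map_add, map_add]
  rw [h2]
  have ha := h.fst v.1.1
  have hb := h.snd v.1.2
  have hc := h.third v.2
  have hc1 : (y ((0, 0), v.2)).1.1 = 0 := by rw [hc]; rfl
  have hc2 : (y ((0, 0), v.2)).1.2 = 0 := by rw [hc]; rfl
  refine Prod.ext (Prod.ext ?_ ?_) ?_
  · show (y ((v.1.1, 0), 0)).1.1 + (y ((0, v.1.2), 0)).1.1 + (y ((0, 0), v.2)).1.1 = _
    rw [hb.1, hc1, add_zero, add_zero]
    rfl
  · show (y ((v.1.1, 0), 0)).1.2 + (y ((0, v.1.2), 0)).1.2 + (y ((0, 0), v.2)).1.2 = _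
    rw [ha.1, hc2, zero_add, add_zero]
    rfl
  · show (y ((v.1.1, 0), 0)).2 + (y ((0, v.1.2), 0)).2 + (y ((0, 0), v.2)).2 = _
    rw [ha.2, hb.2, zero_add, zero_add]
    rfl

theorem Hyp.iso3 (h : Hyp R A P y) (u : U) : R (b3 y u) = R u := by
  have := h.hq ((0, 0), u)
  rw [h.blocks, HU_apply, HU_apply] at this
  simpa using this

theorem Hyp.pair (h : Hyp R A P y) (x z : Fin n → F) : (b1 y x) ⬝ᵥ (b2 y z) = x ⬝ᵥ z := by
  have := h.hq ((x, z), 0)
  rw [h.blocks, HU_apply, HU_apply] at this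
  simpa using this

theorem Hyp.inj1 (h : Hyp R A P y) {x : Fin n → F} (hx : b1 y x = 0) : x = 0 := by
  apply dotProduct_eq_zero
  intro z
  rw [← h.pair x z, hx, zero_dotProduct]

theorem Hyp.comm1 (h : Hyp R A P y) (x : Fin n → F) : b1 y (A.1 *ᵥ x) = A.1 *ᵥ (b1 y x) := by
  have h3 : T U A (y ((x, 0), 0)) = y (T U A ((x, 0), 0)) := LinearMap.congr_fun h.hc.eq _
  have h5 : T U A ((x, 0), 0) = ((A.1 *ᵥ x, 0), 0) := by
    rw [T_apply]
    exact Prod.ext (Prod.ext rfl (Matrix.mulVec_zero (((A⁻¹).1)ᵀ))) rfl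
  rw [h5] at h3
  exact (congrArg (fun v : Sp n F U => v.1.1) h3).symm

end main

/-- **Lemma B** : centralizer of the Singer element. -/
theorem lemmaB [Finite F] [FiniteDimensional F U] {n : ℕ} (R : QuadraticForm F U) (A : SpecialLinearGroup (Fin n) F)
    (P : F[X])
    (hP : aeval A.1 P = 0) (hP' : ∀ x : Fin n → F, (aeval (A⁻¹).1 P) *ᵥ x = 0 → x = 0) (hP1 : P.eval 1 ≠ 0)
    (v0 : Fin n → F) (hv0 : v0 ≠ 0) (hcyc : Submodule.span F (Set.range fun i : ℕ => (A.1 ^ i) *ᵥ v0) = ⊤)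
    {c : ℕ} (hc : Nat.card {y : Module.End F U // ∀ u, R (y u) = R u} ≤ c) :
    Nat.card {y : Module.End F (((Fin n → F) × (Fin n → F)) × U) //
      Commute (slL (Fin n) F U A : (((Fin n → F) × (Fin n → F)) × U) →ₗ[F] (((Fin n → F) × (Fin n → F)) × U)) y ∧
        ∀ v, HU (Fin n) R (y v) = HU (Fin n) R v} ≤ (Nat.card F ^ n - 1) * c := by
  classical
  haveI : Finite U := Module.finite_of_finite F
  haveI : Finite (Module.End F U) := Module.finite_of_finite F
  have hyp : ∀ y : {y : Module.End F (((Fin n → F) × (Fin n → F)) × U) //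
      Commute (slL (Fin n) F U A : (((Fin n → F) × (Fin n → F)) × U) →ₗ[F] (((Fin n → F) × (Fin n → F)) × U)) y ∧
        ∀ v, HU (Fin n) R (y v) = HU (Fin n) R v}, Hyp R A P y.1 := fun y => ⟨hP, hP', hP1, y.2.1, y.2.2⟩
  let f : {y : Module.End F (((Fin n → F) × (Fin n → F)) × U) //
      Commute (slL (Fin n) F U A : (((Fin n → F) × (Fin n → F)) × U) →ₗ[F] (((Fin n → F) × (Fin n → F)) × U)) y ∧
        ∀ v, HU (Fin n) R (y v) = HU (Fin n) R v} →
      {v : Fin n → F // v ≠ 0} × {y : Module.End F U // ∀ u, R (y u) = R u} :=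
    fun y => (⟨b1 y.1 v0, fun h0 => hv0 ((hyp y).inj1 h0)⟩, ⟨b3 y.1, (hyp y).iso3⟩)
  have hf : Function.Injective f := by
    intro y z hyz
    have e1 : b1 y.1 v0 = b1 z.1 v0 := congrArg (fun t => t.1.1) hyz
    have e3 : b3 y.1 = b3 z.1 := congrArg (fun t => t.2.1) hyz
    have e1' : b1 y.1 = b1 z.1 := by
      apply LinearMap.ext_on_range (v := fun i : ℕ => (A.1 ^ i) *ᵥ v0) hcyc
      intro i
      induction i with
      | zero => simpa using e1
      | succ i ih =>
        have h1 : (A.1 ^ (i + 1)) *ᵥ v0 = A.1 *ᵥ ((A.1 ^ i) *ᵥ v0) := by rw [Matrix.mulVec_mulVec, ← pow_succ']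
        rw [h1, (hyp y).comm1, (hyp z).comm1, ih]
    have hsurj : Function.Surjective (b1 y.1) := by
      apply LinearMap.surjective_of_injective
      rw [injective_iff_map_eq_zero]
      exact fun x hx => (hyp y).inj1 hx
    have e2' : ∀ x, b2 y.1 x = b2 z.1 x := by
      intro x
      rw [← sub_eq_zero]
      apply dotProduct_eq_zero
      intro w
      obtain ⟨w, rfl⟩ := hsurj w
      rw [dotProduct_comm, dotProduct_sub, (hyp y).pair, e1', (hyp z).pair, sub_self]
    apply Subtype.ext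
    apply LinearMap.ext
    intro v
    rw [(hyp y).blocks, (hyp z).blocks, e1', e2', e3]
  have hcard : Nat.card {v : Fin n → F // v ≠ 0} = Nat.card F ^ n - 1 := by
    haveI := Fintype.ofFinite F
    rw [Nat.card_eq_fintype_card, Fintype.card_subtype_compl, Fintype.card_subtype_eq, Nat.card_eq_fintype_card,
      Fintype.card_fun, Fintype.card_fin]
  calc Nat.card _ ≤ Nat.card ({v : Fin n → F // v ≠ 0} × {y : Module.End F U // ∀ u, R (y u) = R u}) :=
        Nat.card_le_card_of_injective f hf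
    _ = (Nat.card F ^ n - 1) * Nat.card {y : Module.End F U // ∀ u, R (y u) = R u} := by rw [Nat.card_prod, hcard]
    _ ≤ _ := Nat.mul_le_mul_left _ hc

end Cfsg.Agent.H926.OgCent
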