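import Mathlib
import Cfsg.Agent.H105.Og.TransOdd
import Cfsg.Agent.S0294

/-!
# Transfer to `PΩ⁻_{2m}(q)` (helper926, for helper105, S2454)
-/

set_option autoImplicit false

namespace Cfsg.Agent.H926.TransMinus

open QuadraticMap Cfsg Matrix Module Subgroup Cfsg.Agent.LieClassical.OrthCore
  Cfsg.Agent.LieClassical.OrthForms Cfsg.Agent.LieClassical.OrthFinite Cfsg.Agent.LieClassical.OrthTrans
  Cfsg.Agent.LieClassical.OrthSimple Cfsg.Agent.H122.OrthIso Cfsg.Agent.H105.Og

/-- the binary form -/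
def binF (F : Type*) [Field F] (a b : F) : QuadraticForm F (F × F) :=
  QuadraticMap.linMulLin (LinearMap.fst F F F) (LinearMap.fst F F F) +
    a • QuadraticMap.linMulLin (LinearMap.fst F F F) (LinearMap.snd F F F) +
    b • QuadraticMap.linMulLin (LinearMap.snd F F F) (LinearMap.snd F F F)

theorem binF_apply {F : Type*} [Field F] (a b : F) (z : F × F) :
    binF F a b z = z.1 ^ 2 + a * z.1 * z.2 + b * z.2 ^ 2 := by
  simp only [binF, _root_.QuadraticMap.add_apply, _root_.QuadraticMap.smul_apply, QuadraticMap.linMulLin_apply,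
    LinearMap.fst_apply, LinearMap.snd_apply, smul_eq_mul]
  ring

theorem nondeg_binF {F : Type*} [Field F] [Finite F] (a b : F)
    (hab : ∀ z₁ z₂ : F, z₁ ^ 2 + a * z₁ * z₂ + b * z₂ ^ 2 = 0 → z₁ = 0 ∧ z₂ = 0) : Nondeg (binF F a b) := by
  intro x hx
  have h1 := hx (1, 0)
  have h2 := hx (0, 1)
  rw [polar, binF_apply, binF_apply, binF_apply] at h1 h2
  simp only [Prod.fst_add, Prod.snd_add] at h1 h2
  have h := binary_nondeg F a b hab (z := x.1) (w := x.2) (by linear_combination h1) (by linear_combination h2)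
  exact Prod.ext h.1 h.2

/-- the isometry -/
def minusE (m : ℕ) (F : Type*) [Field F] :
    ((Fin m ⊕ Fin m) ⊕ Fin 2 → F) ≃ₗ[F] (((Fin m → F) × (Fin m → F)) × (F × F)) where
  toFun v := ((fun i => v (.inl (.inl i)), fun i => v (.inl (.inr i))), (v (.inr 0), v (.inr 1)))
  map_add' _ _ := rfl
  map_smul' _ _ := rfl
  invFun v := Sum.elim (Sum.elim v.1.1 v.1.2) ![v.2.1, v.2.2]
  left_inv v := by
    funext i
    rcases i with (i | i) | i
    · rfl
    · rfl
    · fin_cases i <;> rfl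
  right_inv _ := rfl

theorem isoQ_minus (m : ℕ) (F : Type*) [Field F] (a b : F) :
    IsoQ (minusForm m F a b) (HU (Fin m) (binF F a b)) := by
  refine ⟨minusE m F, fun v => ?_⟩
  rw [HU_apply, coe_minusForm, quadFormMinus, binF_apply]
  rfl

theorem transMinus {S : Type*} [Group S] [IsSimpleGroup S] {l : ℕ} (h : IsPOmegaMinusChar l S) :
    ∃ (F : Type) (_ : Field F) (_ : Finite F) (U : Type) (_ : AddCommGroup U) (_ : Module F U)
      (_ : FiniteDimensional F U) (n : ℕ) (R : QuadraticForm F U), 3 ≤ n ∧ finrank F U = 2 ∧ Nondeg R ∧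
      (∀ u, R u = 0 → u = 0) ∧
      Nat.card S ∣ Nat.card F ^ ((n + 1) * n) * (Nat.card F ^ (n + 1) + 1) *
        ∏ i ∈ Finset.range n, (Nat.card F ^ (2 * (i + 1)) - 1) ∧
      Nonempty ((E (HU (Fin n) R) ⧸ center (E (HU (Fin n) R))) ≃* S) := by
  obtain ⟨F, _, _, _, m, a, b, hm, hab, ⟨φ⟩⟩ := h
  obtain ⟨n, rfl⟩ : ∃ n, m = n + 1 := ⟨m - 1, by omega⟩
  have φ : S ≃* POmega F (quadFormMinus n F a b) := φ
  have h3 : Nat.gcd 4 (Fintype.card F ^ (n + 1) + 1) * Nat.card (POmega F (quadFormMinus n F a b)) =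
      Fintype.card F ^ ((n + 1) * n) * (Fintype.card F ^ (n + 1) + 1) *
        ∏ i ∈ Finset.range n, (Fintype.card F ^ (2 * (i + 1)) - 1) := S0294.result (F := F) rfl (n + 1) hm a b hab
  refine ⟨F, inferInstance, inferInstance, F × F, inferInstance, inferInstance, inferInstance, n,
    binF F a b, by omega, by rw [Module.finrank_prod, Module.finrank_self], nondeg_binF a b hab, ?_, ?_,
    quot_of_iso (nondeg_minusForm n F a b hab) (by simp; omega) (coe_minusForm n F a b) φ (isoQ_minus n F a b)⟩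
  · intro u hu
    rw [binF_apply] at hu
    have h4 := hab _ _ hu
    exact Prod.ext h4.1 h4.2
  · rw [Nat.card_eq_fintype_card (α := F), ← h3, Nat.card_congr φ.toEquiv]
    exact Dvd.intro_left _ rfl

end Cfsg.Agent.H926.TransMinus
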